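import Cfsg.Agent.H381.OQ.MackeyB
import Cfsg.Agent.H684.OQ.DefsB
import Cfsg.Agent.Nodes.NormalForm
import Cfsg.Agent.Blocks.OrbitSum
import Cfsg.Agent.Classification.BSW.Theta
import Cfsg.Agent.H493.RatB.WitS

/-!
# S4884, own odd characteristic: characters of odd degree in the principal 2-block (helper381)

`half_of_deg` : `In p cs h T n X`, and for every `λ : T → {±1}` there is an irreducible character `χ` with
`⟨χ|_B, infl λ⟩ = 1` of degree prime to `p`: then there is a nontrivial character of odd degree prime to `p` in the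
principal 2-block.
-/

set_option autoImplicit false
set_option linter.unusedSectionVars false

open scoped ComplexConjugate
open Cfsg

namespace Cfsg.Agent.H381.OQ

open CoxeterSystem Cfsg.Agent.ChevalleyStructure.CoxeterGeom Cfsg.Agent.Tits.Roots Cfsg.Agent.Nodes.Reps
  Cfsg.Agent.Nodes.BNOf Cfsg.Agent.Nodes.Bruhat Cfsg.Agent.Nodes.OppDec Cfsg.Agent.Nodes.LeviDec
  Cfsg.Agent.Nodes.StabComb Cfsg.Agent.Characters Cfsg.Agent.H684.OQ

universe u

/-- the 2-elements of an abelian subgroup -/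
def twoT {Y : Type*} [Group Y] (T : Subgroup Y) (hc : ∀ a ∈ T, ∀ b ∈ T, a * b = b * a) : Subgroup Y where
  carrier := {t | t ∈ T ∧ ∃ k : ℕ, t ^ 2 ^ k = 1}
  one_mem' := ⟨one_mem _, 0, one_pow _⟩
  mul_mem' := by
    rintro a b ⟨ha, k, hk⟩ ⟨hb, l, hl⟩
    refine ⟨mul_mem ha hb, k + l, ?_⟩
    have h1 : Commute a b := hc a ha b hb
    have h2 : a ^ 2 ^ (k + l) = 1 := by rw [pow_add, pow_mul, hk, one_pow]
    have h3 : b ^ 2 ^ (k + l) = 1 := by rw [add_comm, pow_add, pow_mul, hl, one_pow]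
    rw [h1.mul_pow, h2, h3, one_mul]
  inv_mem' := by
    rintro a ⟨ha, k, hk⟩
    exact ⟨inv_mem ha, k, by rw [inv_pow, hk, inv_one]⟩

theorem mem_twoT {Y : Type*} [Group Y] {T : Subgroup Y} {hc : ∀ a ∈ T, ∀ b ∈ T, a * b = b * a} {t : Y} :
    t ∈ twoT T hc ↔ t ∈ T ∧ ∃ k : ℕ, t ^ 2 ^ k = 1 := Iff.rfl

theorem isPGroup_twoT {Y : Type*} [Group Y] {T : Subgroup Y} {hc : ∀ a ∈ T, ∀ b ∈ T, a * b = b * a} :
    IsPGroup 2 ↥(twoT T hc) := by
  rintro ⟨t, ht, k, hk⟩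
  exact ⟨k, Subtype.ext (by simpa using hk)⟩

variable {I W : Type*} {Y : Type u} [Fintype I] [DecidableEq I] [Group W] [Finite W] [Group Y]
  {M : CoxeterMatrix I} {cs : CoxeterSystem M W} {A : I → I → ℤ} {h : IsCartan M A} {p : ℕ} {T : Subgroup Y}
  {n : I → Y} {X : (I → ℤ) → Subgroup Y} (R : RGD cs h p T n X)

include R

/-! ### the fixed points of the 2-elements of `T` -/

theorem fix_U (hnf : H69.OQ.NoFix cs h T X) {hc : ∀ a ∈ T, ∀ b ∈ T, a * b = b * a} {u : Y}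
    (hu : u ∈ RGD.Sup X (RGD.Pos cs h)) (hcen : u ∈ Subgroup.centralizer (twoT T hc : Set Y)) : u = 1 := by
  have h1 := Nodes.NormalForm.centralizer_U R (S := (twoT T hc : Set Y)) fun t ht => ht.1
  have h2 : u ∈ RGD.Sup (fun x => X x ⊓ Subgroup.centralizer (twoT T hc : Set Y)) (RGD.Pos cs h) := by
    rw [← h1]
    exact ⟨hu, hcen⟩
  have h3 : RGD.Sup (fun x => X x ⊓ Subgroup.centralizer (twoT T hc : Set Y)) (RGD.Pos cs h) ≤ ⊥ := by
    refine RGD.Sup_le fun x hx v hv => ?_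
    rw [Subgroup.mem_bot]
    refine hnf x hx.1 v hv.1 fun t ht hk => ?_
    exact Subgroup.mem_centralizer_iff.1 hv.2 t ⟨ht, hk⟩
  exact Subgroup.mem_bot.1 (h3 h2)

theorem sum_U [Finite Y] (hnf : H69.OQ.NoFix cs h T X) (hc : ∀ a ∈ T, ∀ b ∈ T, a * b = b * a) {χ : Y → ℂ}
    (hχ : IsIrrCharacter Y χ) {g : Y} (hg : g ∈ T) [Fintype ↥(RGD.Sup X (RGD.Pos cs h))] :
    ∃ z : ℂ, IsIntegral ℤ z ∧ ∑ u : ↥(RGD.Sup X (RGD.Pos cs h)), χ (g * u) = χ g + 2 * z := by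
  classical
  have : Fintype Y := Fintype.ofFinite Y
  have hint : ∀ y, IsIntegral ℤ (χ y) := fun y => CharactersDeep.ModCongr.isIntegral_irr hχ y
  let f : Y → AlgInt := fun x => if x ∈ RGD.Sup X (RGD.Pos cs h) then ⟨χ (g * x), hint _⟩ else 0
  obtain ⟨a, ha⟩ := Blocks.OrbitSum.sum_eq_sum_centralizer_add_smul (p := 2) (twoT T hc) isPGroup_twoT f (by
    intro t ht x
    have h1 : t * x * t⁻¹ ∈ RGD.Sup X (RGD.Pos cs h) ↔ x ∈ RGD.Sup X (RGD.Pos cs h) :=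
      (Subgroup.mem_normalizer_iff.1 (R.T_le_normalizer_U ht.1) x).symm
    show (if t * x * t⁻¹ ∈ RGD.Sup X (RGD.Pos cs h) then (⟨χ (g * (t * x * t⁻¹)), hint _⟩ : AlgInt) else 0) =
      if x ∈ RGD.Sup X (RGD.Pos cs h) then ⟨χ (g * x), hint _⟩ else 0
    by_cases h2 : x ∈ RGD.Sup X (RGD.Pos cs h)
    · rw [if_pos (h1.2 h2), if_pos h2]
      apply Subtype.ext
      show χ (g * (t * x * t⁻¹)) = χ (g * x)
      have e : g * (t * x * t⁻¹) = t * (g * x) * t⁻¹ := by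
        have h3 : g * t = t * g := hc g hg t ht.1
        calc g * (t * x * t⁻¹) = (g * t) * x * t⁻¹ := by group
          _ = t * (g * x) * t⁻¹ := by rw [h3]; group
      rw [e]
      exact Core.isIrr_isClassFunction hχ _ _
    · rw [if_neg fun h3 => h2 (h1.1 h3), if_neg h2])
  refine ⟨(a : ℂ), a.2, ?_⟩
  have h1 : ((∑ x, f x : AlgInt) : ℂ) = ∑ u : ↥(RGD.Sup X (RGD.Pos cs h)), χ (g * u) := by
    have h2 : ∑ x, f x = ∑ u : ↥(RGD.Sup X (RGD.Pos cs h)), (⟨χ (g * u), hint _⟩ : AlgInt) := by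
      show (∑ x, if x ∈ RGD.Sup X (RGD.Pos cs h) then (⟨χ (g * x), hint _⟩ : AlgInt) else 0) = _
      rw [← Finset.sum_filter]
      symm
      refine Finset.sum_bij (fun u _ => (u : Y)) (fun u _ => Finset.mem_filter.2 ⟨Finset.mem_univ _, u.2⟩)
        (fun u _ v _ e => Subtype.ext e) (fun x hx => ⟨⟨x, (Finset.mem_filter.1 hx).2⟩, Finset.mem_univ _, rfl⟩)
        (fun _ _ => rfl)
    rw [h2]
    push_cast
    rfl
  have h2 : ∑ x ∈ Finset.univ.filter (· ∈ Subgroup.centralizer (twoT T hc : Set Y)), f x = ⟨χ g, hint g⟩ := by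
    rw [Finset.sum_eq_single (1 : Y)]
    · show (if (1 : Y) ∈ RGD.Sup X (RGD.Pos cs h) then (⟨χ (g * 1), hint _⟩ : AlgInt) else 0) = _
      rw [if_pos (one_mem _)]
      apply Subtype.ext
      show χ (g * 1) = χ g
      rw [mul_one]
    · intro x hx hx1
      apply if_neg
      intro hxU
      exact hx1 (fix_U R hnf hxU (Finset.mem_filter.1 hx).2)
    · intro h3
      exact absurd (Finset.mem_filter.2 ⟨Finset.mem_univ _, one_mem _⟩) h3
  rw [h2] at ha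
  rw [← h1, ha]
  simp only [nsmul_eq_mul]
  push_cast
  rfl

/-! ### the Fourier expansion -/

/-- `B = T × U` as sets -/
noncomputable def eB : ↥T × ↥(RGD.Sup X (RGD.Pos cs h)) ≃ ↥(RGD.B cs h T X) :=
  Equiv.ofBijective (fun x => ⟨(x.1 : Y) * (x.2 : Y), mul_mem (RGD.T_le_B x.1.2) (RGD.U_le_B x.2.2)⟩) (by
    constructor
    · rintro ⟨t, u⟩ ⟨t', u'⟩ e
      have e1 : (t : Y) * u = t' * u' := congrArg Subtype.val e
      have h1 : (t' : Y)⁻¹ * t ∈ RGD.Sup X (RGD.Pos cs h) ⊓ T := by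
        refine Subgroup.mem_inf.2 ⟨?_, mul_mem (inv_mem t'.2) t.2⟩
        have e2 : (t' : Y)⁻¹ * t = u' * (u : Y)⁻¹ := by
          rw [eq_mul_inv_iff_mul_eq, mul_assoc, e1, inv_mul_cancel_left]
        rw [e2]
        exact mul_mem u'.2 (inv_mem u.2)
      rw [U_inf_T R, Subgroup.mem_bot, inv_mul_eq_one] at h1
      have h2 : (u : Y) = u' := by
        rw [← h1] at e1
        exact mul_left_cancel e1
      exact Prod.ext (Subtype.ext h1.symm) (Subtype.ext h2)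
    · rintro ⟨b, hb⟩
      obtain ⟨t, ht, u, hu, rfl⟩ := R.mem_B.1 hb
      exact ⟨(⟨t, ht⟩, ⟨u, hu⟩), rfl⟩)

theorem eB_apply (x : ↥T × ↥(RGD.Sup X (RGD.Pos cs h))) : ((eB R x : ↥(RGD.B cs h T X)) : Y) = x.1 * x.2 := rfl

theorem infl_eB (μ : ↥T →* ℂˣ) (x : ↥T × ↥(RGD.Sup X (RGD.Pos cs h))) : infl R μ (eB R x) = μ x.1 := by
  have e : eB R x = (⟨x.1, RGD.T_le_B x.1.2⟩ : ↥(RGD.B cs h T X)) * ⟨x.2, RGD.U_le_B x.2.2⟩ := rfl
  rw [e, map_mul, infl_T R μ x.1.2, infl_U R μ x.2.2, mul_one]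

theorem sum_U_eq [Finite Y] (hc : ∀ a ∈ T, ∀ b ∈ T, a * b = b * a) (χ : Y → ℂ) {g : Y} (hg : g ∈ T)
    [Fintype ↥(RGD.Sup X (RGD.Pos cs h))] [Fintype (↥T →* ℂˣ)] :
    ∑ u : ↥(RGD.Sup X (RGD.Pos cs h)), χ (g * u) =
      (Nat.card ↥(RGD.Sup X (RGD.Pos cs h)) : ℂ) * ∑ μ : ↥T →* ℂˣ, ((μ ⟨g, hg⟩ : ℂˣ) : ℂ) * mB R μ χ := by
  classical
  have : Fintype ↥T := Fintype.ofFinite _
  have : Fintype ↥(RGD.B cs h T X) := Fintype.ofFinite _
  have hcard : Nat.card ↥(RGD.B cs h T X) = Nat.card ↥T * Nat.card ↥(RGD.Sup X (RGD.Pos cs h)) := by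
    rw [← Nat.card_congr (eB R), Nat.card_prod]
  have h1 : ∀ μ : ↥T →* ℂˣ, mB R μ χ = (Nat.card ↥(RGD.B cs h T X) : ℂ)⁻¹ *
      ∑ t : ↥T, ∑ u : ↥(RGD.Sup X (RGD.Pos cs h)), (((μ t)⁻¹ : ℂˣ) : ℂ) * χ (t * u) := by
    intro μ
    rw [mB, finsum_eq_sum_of_fintype, ← Fintype.sum_prod_type']
    congr 1
    refine (Fintype.sum_equiv (eB R) _ _ fun x => ?_).symm
    rw [infl_eB, eB_apply]
  have h2 : ∑ μ : ↥T →* ℂˣ, ((μ ⟨g, hg⟩ : ℂˣ) : ℂ) * mB R μ χ = (Nat.card ↥(RGD.B cs h T X) : ℂ)⁻¹ *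
      ∑ t : ↥T, ∑ u : ↥(RGD.Sup X (RGD.Pos cs h)), (∑ μ : ↥T →* ℂˣ, ((μ (⟨g, hg⟩ * t⁻¹) : ℂˣ) : ℂ)) * χ (t * u) := by
    simp only [h1, Finset.sum_mul, Finset.mul_sum]
    rw [Finset.sum_comm]
    refine Finset.sum_congr rfl fun t _ => ?_
    rw [Finset.sum_comm]
    refine Finset.sum_congr rfl fun u _ => Finset.sum_congr rfl fun μ _ => ?_
    rw [map_mul, map_inv, Units.val_mul]
    ring
  have hTc : ∀ a b : ↥T, a * b = b * a := fun a b => Subtype.ext (hc a a.2 b b.2)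
  rw [h2]
  simp only [Classification.BSW.Theta.sum_hom_apply hTc]
  rw [Finset.sum_eq_single (⟨g, hg⟩ : ↥T)]
  · simp only [mul_inv_cancel, if_true]
    rw [← Finset.mul_sum, hcard]
    have hT0 : (Nat.card ↥T : ℂ) ≠ 0 := Core.card_ne_zero_complex
    have hU0 : (Nat.card ↥(RGD.Sup X (RGD.Pos cs h)) : ℂ) ≠ 0 := Core.card_ne_zero_complex
    push_cast
    field_simp
  · intro t _ ht
    refine Finset.sum_eq_zero fun u _ => ?_
    rw [if_neg fun e => ht (mul_inv_eq_one.1 e).symm, zero_mul]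
  · intro h3
    exact absurd (Finset.mem_univ _) h3

/-! ### the action of `N` on the linear characters -/

/-- conjugation by `g⁻¹` on `T` -/
def cT (g : ↥(NN cs R.nsys)) : ↥T →* ↥T where
  toFun t := ⟨(g : Y)⁻¹ * t * g, by
    obtain ⟨w, hw⟩ := mem_NN.1 g.2
    have h1 := (Subgroup.mem_normalizer_iff.1 (inv_mem hw.mem_normalizer) (t : Y)).1 t.2
    rwa [inv_inv] at h1⟩
  map_one' := Subtype.ext (by simp)
  map_mul' a b := Subtype.ext (by
    show (g : Y)⁻¹ * ((a * b : ↥T) : Y) * g = ((g : Y)⁻¹ * a * g) * ((g : Y)⁻¹ * b * g)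
    push_cast
    group)

theorem cT_apply (g : ↥(NN cs R.nsys)) (t : ↥T) : ((cT R g t : ↥T) : Y) = (g : Y)⁻¹ * t * g := rfl

/-- the action of `N` on the linear characters of `T` -/
@[reducible] def actN : MulAction ↥(NN cs R.nsys) (↥T →* ℂˣ) where
  smul g μ := μ.comp (cT R g)
  one_smul μ := by
    refine MonoidHom.ext fun t => congrArg μ (Subtype.ext ?_)
    rw [cT_apply]
    simp
  mul_smul a b μ := by
    refine MonoidHom.ext fun t => congrArg μ (Subtype.ext ?_)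
    rw [cT_apply, cT_apply, cT_apply]
    push_cast
    group

theorem exists_twoT [Finite Y] (hnf : H69.OQ.NoFix cs h T X) (i : I) : ∃ t : ↥T, t ≠ 1 ∧ t * t = 1 := by
  obtain ⟨x, hx, hx1⟩ := exists_ne_one R i
  by_contra hcon
  push Not at hcon
  apply hx1
  refine hnf (sr i) (isRoot_sr cs h i) x hx ?_
  rintro t ht ⟨k, hk⟩
  have key : ∀ (k : ℕ) (t : ↥T), t ^ 2 ^ k = 1 → t = 1 := by
    intro k
    induction k with
    | zero => intro t ht; simpa using ht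
    | succ k ih =>
      intro t ht
      rw [pow_succ, mul_comm, pow_mul] at ht
      have h2 := ih _ ht
      by_contra ht1
      exact hcon t ht1 (by rw [← pow_two]; exact h2)
  have h1 := key k ⟨t, ht⟩ (Subtype.ext (by simpa using hk))
  have h2 : t = 1 := congrArg Subtype.val h1
  rw [h2, one_mul, mul_one]

/-- **a nontrivial `λ : T → {±1}` with an orbit of odd length** -/
theorem exists_lam [Finite Y] (hnf : H69.OQ.NoFix cs h T X) (hc : ∀ a ∈ T, ∀ b ∈ T, a * b = b * a) (i : I) :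
    ∃ lam : ↥T →* ℂˣ, lam ≠ 1 ∧ (∀ t, lam t * lam t = 1) ∧
      letI := actN R
      Odd (Nat.card (MulAction.orbit ↥(NN cs R.nsys) lam)) := by
  classical
  letI := actN R
  have hfact : Fact (Nat.Prime 2) := ⟨Nat.prime_two⟩
  let _ : CommGroup ↥T := { (inferInstance : Group ↥T) with mul_comm := fun a b => Subtype.ext (hc a a.2 b b.2) }
  obtain ⟨t, ht1, ht2⟩ := exists_twoT R hnf i
  obtain ⟨e⟩ := CommGroup.monoidHom_mulEquiv_of_hasEnoughRootsOfUnity ↥T ℂ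
  have hfin : Finite (↥T →* ℂˣ) := Finite.of_equiv _ e.symm.toEquiv
  -- the characters of order 2
  let K : Subgroup (↥T →* ℂˣ) :=
    { carrier := {μ | μ * μ = 1}
      one_mem' := mul_one 1
      mul_mem' := by
        intro a b ha hb
        refine MonoidHom.ext fun s => ?_
        have h1 : a s * a s = 1 := DFunLike.congr_fun ha s
        have h2 : b s * b s = 1 := DFunLike.congr_fun hb s
        show a s * b s * (a s * b s) = 1
        rw [mul_mul_mul_comm, h1, h2, mul_one]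
      inv_mem' := by
        intro a ha
        refine MonoidHom.ext fun s => ?_
        have h1 : a s * a s = 1 := DFunLike.congr_fun ha s
        show (a s)⁻¹ * (a s)⁻¹ = 1
        rw [← mul_inv, h1, inv_one] }
  have hK : ∀ μ, μ ∈ K ↔ μ * μ = 1 := fun _ => Iff.rfl
  obtain ⟨P₀⟩ : Nonempty (Sylow 2 ↥(NN cs R.nsys)) := inferInstance
  have hsm : ∀ (g : ↥(NN cs R.nsys)) (μ : ↥T →* ℂˣ) (s : ↥T), (g • μ) s = μ (cT R g s) := fun _ _ _ => rfl
  have hsm2 : ∀ (g : ↥(NN cs R.nsys)) (μ : ↥T →* ℂˣ), μ ∈ K → g • μ ∈ K := by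
    intro g μ hμ
    rw [hK] at hμ ⊢
    refine MonoidHom.ext fun s => ?_
    have h1 := DFunLike.congr_fun hμ (cT R g s)
    exact h1
  let act2 : MulAction ↥(P₀ : Subgroup ↥(NN cs R.nsys)) ↥K :=
    { smul := fun g μ => ⟨(g : ↥(NN cs R.nsys)) • (μ : ↥T →* ℂˣ), hsm2 _ _ μ.2⟩
      one_smul := fun μ => Subtype.ext (one_smul _ _)
      mul_smul := fun a b μ => Subtype.ext (mul_smul _ _ _) }
  have hsm3 : ∀ (g : ↥(P₀ : Subgroup ↥(NN cs R.nsys))) (μ : ↥K),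
      ((g • μ : ↥K) : ↥T →* ℂˣ) = (g : ↥(NN cs R.nsys)) • (μ : ↥T →* ℂˣ) := fun _ _ => rfl
  have hdvd : 2 ∣ Nat.card ↥K := by
    have h1 : (⟨e.symm t, by rw [hK, ← map_mul, ht2, map_one]⟩ : ↥K) ≠ 1 := by
      intro h2
      have h3 : e.symm t = 1 := congrArg Subtype.val h2
      rw [MulEquiv.map_eq_one_iff] at h3
      exact ht1 h3
    have h2 : orderOf (⟨e.symm t, by rw [hK, ← map_mul, ht2, map_one]⟩ : ↥K) = 2 := by
      refine orderOf_eq_prime ?_ h1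
      rw [pow_two]
      exact Subtype.ext (by
        show e.symm t * e.symm t = 1
        rw [← map_mul, ht2, map_one])
    rw [← h2]
    exact orderOf_dvd_natCard _
  obtain ⟨lam, hlam, hne⟩ := P₀.2.exists_fixed_point_of_prime_dvd_card_of_fixed_point ↥K hdvd (a := (1 : ↥K)) (by
    intro g
    apply Subtype.ext
    rw [hsm3]
    refine MonoidHom.ext fun s => ?_
    rw [hsm]
    rfl)
  refine ⟨lam, fun h1 => hne (Subtype.ext h1.symm), fun s => DFunLike.congr_fun lam.2 s, ?_⟩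
  have h1 : (P₀ : Subgroup ↥(NN cs R.nsys)) ≤ MulAction.stabilizer ↥(NN cs R.nsys) (lam : ↥T →* ℂˣ) := by
    intro g hg
    rw [MulAction.mem_stabilizer_iff]
    have h2 := hlam ⟨g, hg⟩
    exact congrArg Subtype.val h2
  rw [Nat.card_coe_set_eq, ← MulAction.index_stabilizer, Nat.odd_iff, ← Nat.two_dvd_ne_zero]
  intro h2
  exact P₀.not_dvd_index (h2.trans (Subgroup.index_dvd_of_le h1))

/-! ### the values at the elements of odd order of `T` -/

theorem mem_orbit_iff {μ lam : ↥T →* ℂˣ} :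
    letI := actN R
    μ ∈ MulAction.orbit ↥(NN cs R.nsys) lam ↔ ∃ g ∈ NN cs R.nsys, Cj T μ lam g := by
  letI := actN R
  constructor
  · rintro ⟨g, rfl⟩
    exact ⟨g, g.2, fun t ht ht' => rfl⟩
  · rintro ⟨g, hg, hc⟩
    refine ⟨⟨g, hg⟩, MonoidHom.ext fun t => ?_⟩
    exact (hc t t.2 (cT R ⟨g, hg⟩ t).2).symm

theorem value [Finite Y] (hG : GG cs h T X = ⊤) (hnf : H69.OQ.NoFix cs h T X)
    (hc : ∀ a ∈ T, ∀ b ∈ T, a * b = b * a) {χ : Y → ℂ} (hχ : IsIrrCharacter Y χ) {lam : ↥T →* ℂˣ}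
    (hl2 : ∀ t, lam t * lam t = 1) (hm : mB R lam χ = 1) {g : Y} (hg : g ∈ T) (hodd : Odd (orderOf g)) :
    letI := actN R
    ∃ z : ℂ, IsIntegral ℤ z ∧ χ g = (Nat.card ↥(RGD.Sup X (RGD.Pos cs h)) *
      Nat.card (MulAction.orbit ↥(NN cs R.nsys) lam) : ℕ) + 2 * z := by
  classical
  letI := actN R
  have : Fintype ↥(RGD.Sup X (RGD.Pos cs h)) := Fintype.ofFinite _
  let _ : CommGroup ↥T := { (inferInstance : Group ↥T) with mul_comm := fun a b => Subtype.ext (hc a a.2 b b.2) }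
  have hfin : Finite (↥T →* ℂˣ) := by
    obtain ⟨e⟩ := CommGroup.monoidHom_mulEquiv_of_hasEnoughRootsOfUnity ↥T ℂ
    exact Finite.of_equiv _ e.symm.toEquiv
  have : Fintype (↥T →* ℂˣ) := Fintype.ofFinite _
  obtain ⟨z, hz, e1⟩ := sum_U R hnf hc hχ hg
  rw [sum_U_eq R hc χ hg] at e1
  have hcl := Core.isIrr_isClassFunction hχ
  have hodd1 : ∀ s : ↥T, (∃ k, Odd k ∧ s ^ k = 1) → lam s = 1 := by
    rintro s ⟨k, ⟨m, rfl⟩, hs⟩
    have h1 : lam s ^ (2 * m + 1) = 1 := by rw [← map_pow, hs, map_one]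
    rwa [pow_succ, pow_mul, pow_two, hl2, one_pow, one_mul] at h1
  have h2 : ∀ μ : ↥T →* ℂˣ, ((μ ⟨g, hg⟩ : ℂˣ) : ℂ) * mB R μ χ =
      if μ ∈ MulAction.orbit ↥(NN cs R.nsys) lam then 1 else 0 := by
    intro μ
    split_ifs with hμ
    · obtain ⟨k, hk, hC⟩ := (mem_orbit_iff R).1 hμ
      rw [mB_congr R hG hcl hk hC, hm, mul_one, hC g hg (cT R ⟨k, hk⟩ ⟨g, hg⟩).2]
      rw [hodd1, Units.val_one]
      refine ⟨orderOf g, hodd, Subtype.ext ?_⟩
      show (k⁻¹ * g * k) ^ orderOf g = 1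
      have e3 := conj_pow (a := k⁻¹) (b := g) (i := orderOf g)
      rw [inv_inv] at e3
      rw [e3, pow_orderOf_eq_one]
      simp
    · have h3 : mB R μ χ = 0 := by
        by_contra h3
        obtain ⟨k, hk, hC⟩ := mB_conj R hG hχ h3 (ν := lam) (by rw [hm]; exact one_ne_zero)
        exact hμ ((mem_orbit_iff R).2 ⟨k, hk, hC⟩)
      rw [h3, mul_zero]
  rw [Finset.sum_congr rfl fun μ _ => h2 μ, Finset.sum_boole] at e1
  have h4 : (Finset.univ.filter fun μ : ↥T →* ℂˣ => μ ∈ MulAction.orbit ↥(NN cs R.nsys) lam).card =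
      Nat.card (MulAction.orbit ↥(NN cs R.nsys) lam) := by
    rw [← Nat.card_eq_finsetCard]
    exact Nat.card_congr (Equiv.subtypeEquivRight fun μ => by simp)
  rw [h4] at e1
  refine ⟨-z, hz.neg, ?_⟩
  push_cast
  rw [e1]
  ring

theorem mem_T_of_cent [Finite Y] (hG : GG cs h T X = ⊤) (hnf : H69.OQ.NoFix cs h T X)
    {hc : ∀ a ∈ T, ∀ b ∈ T, a * b = b * a} (hf : TWFaithful cs T n R.nsys) {y : Y}
    (hy : y ∈ Subgroup.centralizer (twoT T hc : Set Y)) (hodd : Odd (orderOf y)) : y ∈ T := by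
  obtain ⟨u, hu, w, k, hk, hkc, v, hv, e⟩ := Nodes.NormalForm.mem_centralizer R (S := (twoT T hc : Set Y))
    (fun t ht => ht.1) (g := y) (by rw [hG]; exact Subgroup.mem_top y) hy
  rw [← Nodes.NormalForm.centralizer_U R (S := (twoT T hc : Set Y)) fun t ht => ht.1] at hu hv
  have hu1 := fix_U R hnf hu.1 hu.2
  have hv1 := fix_U R hnf hv.1 hv.2
  rw [hu1, hv1, one_mul, mul_one] at e
  subst e
  have hpow : ∀ m : ℕ, Rp cs R.nsys (w ^ m) (y ^ m) := by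
    intro m
    induction m with
    | zero => rw [pow_zero, pow_zero]; exact rp_one
    | succ m ih => rw [pow_succ, pow_succ]; exact ih.mul hk
  have hw : orderOf w ∣ orderOf y := by
    apply orderOf_dvd_of_pow_eq_one
    have h1 := hpow (orderOf y)
    rw [pow_orderOf_eq_one] at h1
    exact R.eq_one_of_mem_B h1 (one_mem _)
  have hw1 : w = 1 := by
    refine hf w y hk (Odd.of_dvd_nat hodd hw) fun t ht hk => ?_
    exact (Subgroup.mem_centralizer_iff.1 hkc t ⟨ht, hk⟩).symm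
  rw [hw1] at hk
  exact hk.mem_of_one

omit R in
theorem two_dvd_of {m : ℤ} {z : ℂ} (hz : IsIntegral ℤ z) (h : (m : ℂ) = 2 * z) : (2 : ℤ) ∣ m := by
  have h1 : z = (((m : ℚ) / 2 : ℚ) : ℂ) := by
    push_cast
    rw [h]
    field_simp
  have h2 : IsIntegral ℤ ((m : ℚ) / 2) := by
    have h3 : IsIntegral ℤ (algebraMap ℚ ℂ ((m : ℚ) / 2)) := by
      rw [← show z = algebraMap ℚ ℂ ((m : ℚ) / 2) from h1]
      exact hz
    exact (isIntegral_algebraMap_iff (algebraMap ℚ ℂ).injective).1 h3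
  obtain ⟨k, hk⟩ := IsIntegrallyClosed.isIntegral_iff.1 h2
  refine ⟨k, ?_⟩
  have h4 : (k : ℚ) = (m : ℚ) / 2 := hk
  have h5 : (m : ℚ) = 2 * (k : ℚ) := by
    rw [h4]; field_simp
  exact_mod_cast h5

/-- **characters of odd degree in the principal 2-block** -/
theorem half_of_degR [Finite Y] (hG : GG cs h T X = ⊤) (hcomm : ∀ a ∈ T, ∀ b ∈ T, a * b = b * a)
    (hnf : H69.OQ.NoFix cs h T X) (hf : TWFaithful cs T n R.nsys) (hp : p.Prime) (hp2 : p ≠ 2) [Nonempty I]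
    [Fintype ↥(RGD.B cs h T X)]
    (hdeg : ∀ lam : ↥T →* ℂˣ, (∀ t, lam t * lam t = 1) → ∃ χ : Y → ℂ, IsIrrCharacter Y χ ∧
      ∑ b : ↥(RGD.B cs h T X), (((infl R lam b)⁻¹ : ℂˣ) : ℂ) * χ b = (Nat.card ↥(RGD.B cs h T X) : ℂ) ∧
      ¬ p ∣ charDegree χ) {M2 : Ideal AlgInt} (hM : IsPModular 2 M2) :
    ∃ θ : IrrCharacter Y, θ ∈ principalBlock M2 Y ∧ (θ : Y → ℂ) ≠ 1 ∧ ¬ 2 ∣ charDegree (θ : Y → ℂ) ∧
      ¬ p ∣ charDegree (θ : Y → ℂ) := by
  classical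
  obtain ⟨i⟩ := ‹Nonempty I›
  have hfact : Fact (Nat.Prime 2) := ⟨Nat.prime_two⟩
  have hfactp : Fact p.Prime := ⟨hp⟩
  letI := actN R
  obtain ⟨lam, hl1, hl2, hlo⟩ := exists_lam R hnf hcomm i
  obtain ⟨χ, hχ, hm', hpd⟩ := hdeg lam hl2
  have hm : mB R lam χ = 1 := by
    rw [mB, finsum_eq_sum_of_fintype, hm', inv_mul_cancel₀ Core.card_ne_zero_complex]
  have hUodd : Odd (Nat.card ↥(RGD.Sup X (RGD.Pos cs h))) := by
    obtain ⟨k, hk⟩ := (IsPGroup.iff_card (p := p)).1 (R.isPGroup_Upos)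
    rw [hk]
    exact (hp.odd_of_ne_two hp2).pow
  have hval : ∀ g ∈ T, Odd (orderOf g) → ∃ z : ℂ, IsIntegral ℤ z ∧
      χ g = (Nat.card ↥(RGD.Sup X (RGD.Pos cs h)) * Nat.card (MulAction.orbit ↥(NN cs R.nsys) lam) : ℕ) + 2 * z :=
    fun g hg ho => value R hG hnf hcomm hχ hl2 hm hg ho
  obtain ⟨z₁, hz₁, e₁⟩ := hval 1 (one_mem _) (by rw [orderOf_one]; exact odd_one)
  have hdeg1 := Blocks.Basic.irr_one_eq_charDegree hχ
  have h2 : ¬ 2 ∣ charDegree χ := by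
    rintro ⟨m, hm2⟩
    have h3 : (((Nat.card ↥(RGD.Sup X (RGD.Pos cs h)) * Nat.card (MulAction.orbit ↥(NN cs R.nsys) lam) : ℕ) : ℤ) : ℂ) =
        2 * ((m : ℂ) - z₁) := by
      have h4 : ((charDegree χ : ℕ) : ℂ) = 2 * m := by rw [hm2]; push_cast; ring
      rw [← hdeg1, e₁] at h4
      rw [Int.cast_natCast, mul_sub, ← h4]
      ring
    have hmi : IsIntegral ℤ (m : ℂ) := by
      have := isIntegral_algebraMap (R := ℤ) (A := ℂ) (x := (m : ℤ))
      simpa using this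
    have h5 := two_dvd_of (hmi.sub hz₁) h3
    have h6 : 2 ∣ Nat.card ↥(RGD.Sup X (RGD.Pos cs h)) * Nat.card (MulAction.orbit ↥(NN cs R.nsys) lam) := by
      exact_mod_cast h5
    have h7 := hUodd.mul hlo
    rw [Nat.odd_iff] at h7
    omega
  refine ⟨⟨χ, hχ⟩, ?_, ?_, h2, hpd⟩
  · refine H493.RatB.mem_of_value hM (isPGroup_twoT (T := T) (hc := hcomm)) ⟨χ, hχ⟩ h2 ?_
    intro y hy hoy
    have hoy' : Odd (orderOf y) := by
      rw [Nat.odd_iff]
      omega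
    have hyT := mem_T_of_cent R hG hnf (hc := hcomm) hf hy hoy'
    obtain ⟨z₂, hz₂, e₂⟩ := hval y hyT hoy'
    have e3 : ((⟨χ, hχ⟩ : IrrCharacter Y) : Y → ℂ) 1 - ((⟨χ, hχ⟩ : IrrCharacter Y) : Y → ℂ) y =
        ((2 : ℕ) : ℂ) * (z₁ - z₂) := by
      show χ 1 - χ y = _
      rw [e₁, e₂]
      push_cast
      ring
    rw [e3]
    refine Blocks.LocalRing.memLocalIdeal_mul_right hM ?_ ?_
    · rw [Blocks.LocalRing.memLocalIdeal_natCast_iff hM]
    · exact Blocks.LocalRing.memLocalRing_of_isIntegral hM (hz₁.sub hz₂)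
  · intro h1
    change χ = 1 at h1
    have h3 : mB R (1 : ↥T →* ℂˣ) χ = 1 := by
      rw [mB, finsum_eq_sum_of_fintype]
      have h4 : ∀ b : ↥(RGD.B cs h T X), (((infl R (1 : ↥T →* ℂˣ) b)⁻¹ : ℂˣ) : ℂ) * χ b = 1 := by
        intro b
        rw [h1]
        simp [infl]
      rw [Finset.sum_congr rfl fun b _ => h4 b, Finset.sum_const, Finset.card_univ, nsmul_eq_mul, mul_one,
        Nat.card_eq_fintype_card, inv_mul_cancel₀]
      exact Nat.cast_ne_zero.2 Fintype.card_ne_zero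
    obtain ⟨g, hg, hC⟩ := mB_conj R hG hχ (μ := lam) (ν := 1) (by rw [hm]; exact one_ne_zero)
      (by rw [h3]; exact one_ne_zero)
    apply hl1
    refine MonoidHom.ext fun t => ?_
    rw [hC t t.2 (cT R ⟨g, hg⟩ t).2]
    rfl

omit R in
/-- **characters of odd degree in the principal 2-block** -/
theorem half_of_deg [Finite Y] (hI : InB p cs h T n X) (hp : p.Prime) (hp2 : p ≠ 2) [Nonempty I]
    [Fintype ↥(RGD.B cs h T X)]
    (hdeg : ∀ lam : ↥T →* ℂˣ, (∀ t, lam t * lam t = 1) → ∃ χ : Y → ℂ, IsIrrCharacter Y χ ∧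
      ∑ b : ↥(RGD.B cs h T X), (((infl hI.rgd lam b)⁻¹ : ℂˣ) : ℂ) * χ b = (Nat.card ↥(RGD.B cs h T X) : ℂ) ∧
      ¬ p ∣ charDegree χ) {M2 : Ideal AlgInt} (hM : IsPModular 2 M2) :
    ∃ θ : IrrCharacter Y, θ ∈ principalBlock M2 Y ∧ (θ : Y → ℂ) ≠ 1 ∧ ¬ 2 ∣ charDegree (θ : Y → ℂ) ∧
      ¬ p ∣ charDegree (θ : Y → ℂ) :=
  half_of_degR hI.rgd hI.top hI.comm hI.nofix hI.faith hp hp2 hdeg hM

end Cfsg.Agent.H381.OQ
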