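import Cfsg.Agent.H684.OQ.Alf
import Cfsg.Agent.Classification.BSW.Theta

/-!
# S4884, own odd characteristic: the eigenvalue at a node of type `SU_3` (helper381)

`su_alf` : the factor `1 + ζ α` at a node of type `SU_3(Q)` is `1 / m`, `m = Q` or `m = Q³`.
-/

set_option autoImplicit false
set_option linter.unusedSectionVars false

open Cfsg

namespace Cfsg.Agent.H381.OQ

open CoxeterSystem Cfsg.Agent.ChevalleyStructure.CoxeterGeom Cfsg.Agent.Tits.Roots Cfsg.Agent.Tits.Core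
  Cfsg.Agent.Tits.Exchange Cfsg.Agent.Nodes.Reps Cfsg.Agent.Nodes.BNOf Cfsg.Agent.Nodes.StabComb
  Cfsg.Agent.Nodes.Bruhat Cfsg.Agent.Nodes.OppDec Cfsg.Agent.Nodes.LeviDec Cfsg.Agent.H684.OQ

universe u v

variable {I W : Type*} {Y : Type u} [Fintype I] [DecidableEq I] [Group W] [Finite W] [Group Y] [Finite Y]
  {M : CoxeterMatrix I} {cs : CoxeterSystem M W} {A : I → I → ℤ} {h : IsCartan M A} {p : ℕ} {T : Subgroup Y}
  {n : I → Y} {X : (I → ℤ) → Subgroup Y} (R : RGD cs h p T n X)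

include R

/-- `∑ ν(t(x)) f(b(x))` -/
noncomputable def AA (i : I) (nu : ↥T →* ℂˣ) (f : ↥(X (sr i)) →* ℂˣ) : ℂ := by
  classical
  exact letI := Fintype.ofFinite ↥(X (sr i))
    ∑ x : X (sr i), if hx : (x : Y) ≠ 1 then ((nu ⟨tx R i x, tx_mem R i x⟩ : ℂˣ) : ℂ) *
        ((f ⟨bx R i x, (bx_spec R x.2 hx).1⟩ : ℂˣ) : ℂ) else 0

theorem alf_eq (psi : ↥(UU cs h X) →* ℂˣ) {n₀ : Y} (hn₀ : Rp cs R.nsys (w0 cs) n₀) (i : I) (nu : ↥T →* ℂˣ) :
    alf R psi hn₀ i nu = (Nat.card (X (sr i)) : ℂ)⁻¹ * ((nu ⟨n i * n i, R.sq_mem_T i⟩ : ℂˣ) : ℂ) *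
      AA R i nu (psiX R psi hn₀ i) := rfl

theorem zet_eq (i : I) (nu : ↥T →* ℂˣ) : zet R i nu = AA R i nu 1 := by
  classical
  unfold zet AA
  refine Finset.sum_congr rfl fun x _ => ?_
  by_cases hx : (x : Y) = 1
  · rw [if_pos hx, dif_neg (not_not.2 hx)]
  · rw [if_neg hx, dif_pos hx, MonoidHom.one_apply, Units.val_one, mul_one]

/-- **the factor at a node of type `SU_3`** -/
theorem su_alf [Fact p.Prime] {i : I} (hSU : SUNode T n X i) {psi : ↥(UU cs h X) →* ℂˣ} (hpsi : Nondeg psi)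
    {n₀ : Y} (hn₀ : Rp cs R.nsys (w0 cs) n₀) {nu : ↥T →* ℂˣ} (h2 : ∀ s, nu s * nu s = 1)
    (hinv : cjl (rp_simple cs R.nsys i).mem_normalizer nu = nu) :
    ∃ m : ℕ, (1 + zet R i nu * alf R psi hn₀ i nu) * (m : ℂ) = 1 := by
  classical
  obtain ⟨Q, Z, t, b, hQ1, hZX, hZc, hXc, hZker, hcomm, hdec, hbZ, hnu⟩ := hSU
  have htb : ∀ x ∈ X (sr i), x ≠ 1 → tx R i x = t x ∧ bx R i x = b x := by
    intro x hx hx1
    obtain ⟨htT, hb, a, ha, e⟩ := hdec x hx hx1
    exact tx_unique R hx hx1 htT ha hb e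
  rcases hnu nu h2 (fun s hs hs' => cjl_fix R hinv s hs hs') with h1 | ⟨hn2, e, he, hZe, hsum⟩
  · refine ⟨Nat.card (X (sr i)), alf_of_one R hpsi hn₀ i hinv fun x hx hx1 => ?_⟩
    have h3 := h1 x hx hx1 (by rw [← (htb x hx hx1).1]; exact tx_mem R i x)
    rw [← h3]
    congr 1
    exact Subtype.ext (htb x hx hx1).1
  · let iF : Fintype ↥(X (sr i)) := Fintype.ofFinite _
    have hmu : nu ⟨n i * n i, R.sq_mem_T i⟩ = 1 := hn2 _
    have hq : (Nat.card (X (sr i)) : ℂ) = (Q : ℂ) ^ 3 := by rw [hXc]; push_cast; rfl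
    have hQ0 : (Q : ℂ) ≠ 0 := Nat.cast_ne_zero.2 (by omega)
    have hQ1' : (Q : ℂ) + (Q : ℂ) ^ 2 ≠ 0 := by
      have : ((Q + Q ^ 2 : ℕ) : ℂ) ≠ 0 := Nat.cast_ne_zero.2 (by positivity)
      exact_mod_cast this
    have hz : zet R i nu = - e * Q * (Q - 1) := by
      have h3 := hsum (fun x => if x = 1 then 0 else ((nu ⟨tx R i x, tx_mem R i x⟩ : ℂˣ) : ℂ)) (fun x hx hx1 htx => by
        show (if x = 1 then (0 : ℂ) else _) = _
        rw [if_neg hx1]
        congr 2
        exact Subtype.ext (htb x hx hx1).1) (if_pos rfl)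
      rw [← h3]
      rfl
    -- the quotient by `Z`
    let N : Subgroup ↥(X (sr i)) := Z.subgroupOf (X (sr i))
    have hNm : ∀ x : ↥(X (sr i)), x ∈ N ↔ (x : Y) ∈ Z := fun x => Subgroup.mem_subgroupOf
    have hN : N.Normal := ⟨fun x hx g => by
      rw [hNm] at hx ⊢
      have h3 := mul_mem (hcomm g g.2 x x.2) hx
      have e3 : (g : Y) * x * (g : Y)⁻¹ * (x : Y)⁻¹ * x = ((g * x * g⁻¹ : ↥(X (sr i))) : Y) := by
        push_cast
        group
      rwa [e3] at h3⟩
    have hab : ∀ a b : ↥(X (sr i)) ⧸ N, a * b = b * a := by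
      intro a b
      induction a using QuotientGroup.induction_on with | H x => ?_
      induction b using QuotientGroup.induction_on with | H y => ?_
      rw [← QuotientGroup.mk_mul, ← QuotientGroup.mk_mul, QuotientGroup.eq, hNm]
      have h3 := hcomm (y⁻¹ : Y) (inv_mem y.2) (x⁻¹ : Y) (inv_mem x.2)
      rw [inv_inv, inv_inv] at h3
      have e3 : (((x * y)⁻¹ * (y * x) : ↥(X (sr i))) : Y) = (y : Y)⁻¹ * (x : Y)⁻¹ * y * x := by
        push_cast
        group
      rw [e3]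
      exact h3
    have hcN : Nat.card (↥(X (sr i)) ⧸ N) = Q ^ 2 := by
      have h3 := Subgroup.card_eq_card_quotient_mul_card_subgroup N
      rw [Nat.card_congr (Subgroup.subgroupOfEquivOfLe hZX).toEquiv, hZc, hXc] at h3
      have h4 : Q ^ 2 * Q = Nat.card (↥(X (sr i)) ⧸ N) * Q := by rw [← h3]; ring
      exact (Nat.eq_of_mul_eq_mul_right (by omega) h4).symm
    have hfin : Finite ((↥(X (sr i)) ⧸ N) →* ℂˣ) := by
      let _ : CommGroup (↥(X (sr i)) ⧸ N) := { (inferInstance : Group (↥(X (sr i)) ⧸ N)) with mul_comm := hab }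
      obtain ⟨e⟩ := CommGroup.monoidHom_mulEquiv_of_hasEnoughRootsOfUnity (↥(X (sr i)) ⧸ N) ℂ
      exact Finite.of_equiv _ e.symm.toEquiv
    let iG : Fintype ((↥(X (sr i)) ⧸ N) →* ℂˣ) := Fintype.ofFinite _
    -- the dichotomy
    have key : ∀ f : ↥(X (sr i)) →* ℂˣ, f ≠ 1 → ∃ c : ℕ, (Q : ℂ) - e * AA R i nu f = ((Q : ℂ) + (Q : ℂ) ^ 2) * c := by
      intro f hf
      obtain ⟨psi', hpsi', hf'⟩ := exists_psiX R hn₀ i f hf
      have h3 := alf_quad R hpsi' hn₀ i hinv
      rw [alf_eq, hf', hmu, Units.val_one, hz, hq, mul_one] at h3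
      set a := AA R i nu f with ha
      have h4 : (e * a - Q) * (e * a + (Q : ℂ) ^ 2) = 0 := by
        have h5 : a * a = (Q : ℂ) ^ 3 - e * Q * (Q - 1) * a := by
          field_simp at h3
          linear_combination h3
        linear_combination he * (a * a) + h5
      rcases mul_eq_zero.1 h4 with h5 | h5
      · exact ⟨0, by rw [Nat.cast_zero, mul_zero]; linear_combination - h5⟩
      · exact ⟨1, by rw [Nat.cast_one, mul_one]; linear_combination - h5⟩
    -- the sum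
    have hS : ∑ g : (↥(X (sr i)) ⧸ N) →* ℂˣ, AA R i nu (g.comp (QuotientGroup.mk' N)) = (Q : ℂ) ^ 2 * (Q - 1) * e := by
      have e1 : ∀ g : (↥(X (sr i)) ⧸ N) →* ℂˣ, AA R i nu (g.comp (QuotientGroup.mk' N)) =
          ∑ x : ↥(X (sr i)), if hx : (x : Y) ≠ 1 then ((nu ⟨tx R i x, tx_mem R i x⟩ : ℂˣ) : ℂ) *
            ((g (QuotientGroup.mk' N ⟨bx R i x, (bx_spec R x.2 hx).1⟩) : ℂˣ) : ℂ) else 0 := fun g => rfl
      rw [Finset.sum_congr rfl fun g _ => e1 g, Finset.sum_comm]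
      have e2 : ∀ x : ↥(X (sr i)), ∑ g : (↥(X (sr i)) ⧸ N) →* ℂˣ,
          (if hx : (x : Y) ≠ 1 then ((nu ⟨tx R i x, tx_mem R i x⟩ : ℂˣ) : ℂ) *
            ((g (QuotientGroup.mk' N ⟨bx R i x, (bx_spec R x.2 hx).1⟩) : ℂˣ) : ℂ) else 0) =
          (Q : ℂ) ^ 2 * ((if (x : Y) ∈ Z then e else 0) - if x = 1 then e else 0) := by
        intro x
        by_cases hx : (x : Y) = 1
        · have hx' : x = 1 := Subtype.ext hx
          rw [if_pos hx', if_pos (by rw [hx]; exact one_mem Z), sub_self, mul_zero]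
          refine Finset.sum_eq_zero fun g _ => ?_
          rw [dif_neg (not_not.2 hx)]
        · have hx' : x ≠ 1 := fun h3 => hx (congrArg Subtype.val h3)
          rw [if_neg hx', sub_zero]
          have e3 : ∀ g : (↥(X (sr i)) ⧸ N) →* ℂˣ, (if hx : (x : Y) ≠ 1 then ((nu ⟨tx R i x, tx_mem R i x⟩ : ℂˣ) : ℂ) *
            ((g (QuotientGroup.mk' N ⟨bx R i x, (bx_spec R x.2 hx).1⟩) : ℂˣ) : ℂ) else 0) =
            ((nu ⟨tx R i x, tx_mem R i x⟩ : ℂˣ) : ℂ) *
            ((g (QuotientGroup.mk' N ⟨bx R i x, (bx_spec R x.2 hx).1⟩) : ℂˣ) : ℂ) := fun g => dif_pos hx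
          rw [Finset.sum_congr rfl fun g _ => e3 g, ← Finset.mul_sum,
            Classification.BSW.Theta.sum_hom_apply hab]
          have e4 : (QuotientGroup.mk' N ⟨bx R i x, (bx_spec R x.2 hx).1⟩ = 1) ↔ (x : Y) ∈ Z := by
            rw [QuotientGroup.mk'_apply, QuotientGroup.eq_one_iff, hNm]
            show bx R i x ∈ Z ↔ (x : Y) ∈ Z
            rw [(htb x x.2 hx).2]
            exact hbZ x x.2 hx
          by_cases hxZ : (x : Y) ∈ Z
          · rw [if_pos hxZ, if_pos (e4.2 hxZ), hcN]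
            have e5 := hZe x hxZ hx (by rw [← (htb x x.2 hx).1]; exact tx_mem R i x)
            have e6 : ((nu ⟨tx R i x, tx_mem R i x⟩ : ℂˣ) : ℂ) = e := by
              rw [← e5]
              congr 2
              exact Subtype.ext (htb x x.2 hx).1
            rw [e6]
            push_cast
            ring
          · rw [if_neg hxZ, if_neg fun h3 => hxZ (e4.1 h3), mul_zero, mul_zero]
      rw [Finset.sum_congr rfl fun x _ => e2 x, ← Finset.mul_sum, Finset.sum_sub_distrib,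
        Finset.sum_ite_eq' Finset.univ (1 : ↥(X (sr i))), if_pos (Finset.mem_univ _)]
      have e7 : ∑ x : ↥(X (sr i)), (if (x : Y) ∈ Z then e else 0) = Q * e := by
        rw [← Finset.sum_filter, Finset.sum_const, nsmul_eq_mul]
        congr 1
        have e8 : (Finset.univ.filter fun x : ↥(X (sr i)) => (x : Y) ∈ Z).card = Q := by
          rw [← hZc, ← Nat.card_congr (Subgroup.subgroupOfEquivOfLe hZX).toEquiv, ← Nat.card_eq_finsetCard]
          exact Nat.card_congr (Equiv.subtypeEquivRight fun x => by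
            rw [Finset.mem_filter, Subgroup.mem_subgroupOf]
            simp)
        rw [e8]
      rw [e7]
      ring
    -- all the values
    have hall : ∀ g : (↥(X (sr i)) ⧸ N) →* ℂˣ, g ≠ 1 → (Q : ℂ) - e * AA R i nu (g.comp (QuotientGroup.mk' N)) = 0 := by
      have hg1 : ∀ g : (↥(X (sr i)) ⧸ N) →* ℂˣ, g ≠ 1 → g.comp (QuotientGroup.mk' N) ≠ 1 := by
        intro g hg h3
        apply hg
        refine MonoidHom.ext fun d => ?_
        induction d using QuotientGroup.induction_on with | H x => ?_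
        exact DFunLike.congr_fun h3 x
      have key' : ∀ g : (↥(X (sr i)) ⧸ N) →* ℂˣ, ∃ c : ℕ, g ≠ 1 →
          (Q : ℂ) - e * AA R i nu (g.comp (QuotientGroup.mk' N)) = ((Q : ℂ) + (Q : ℂ) ^ 2) * c := by
        intro g
        by_cases hg : g = 1
        · exact ⟨0, fun h3 => absurd hg h3⟩
        · obtain ⟨c, hc⟩ := key _ (hg1 g hg)
          exact ⟨c, fun _ => hc⟩
      choose c hc using key'
      have h3 : ∑ g : (↥(X (sr i)) ⧸ N) →* ℂˣ, ((Q : ℂ) - e * AA R i nu (g.comp (QuotientGroup.mk' N))) = (Q : ℂ) ^ 2 := by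
        rw [Finset.sum_sub_distrib, Finset.sum_const, ← Finset.mul_sum, hS, nsmul_eq_mul, Finset.card_univ,
          Classification.BSW.Theta.card_hom hab, hcN]
        push_cast
        linear_combination - (Q : ℂ) ^ 2 * (Q - 1) * he
      rw [← Finset.add_sum_erase _ _ (Finset.mem_univ (1 : (↥(X (sr i)) ⧸ N) →* ℂˣ))] at h3
      have h4 : (Q : ℂ) - e * AA R i nu ((1 : (↥(X (sr i)) ⧸ N) →* ℂˣ).comp (QuotientGroup.mk' N)) = (Q : ℂ) ^ 2 := by
        rw [MonoidHom.one_comp, ← zet_eq, hz]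
        linear_combination (Q : ℂ) * (Q - 1) * he
      rw [h4, Finset.sum_congr rfl fun g hg => hc g (Finset.ne_of_mem_erase hg), ← Finset.mul_sum] at h3
      have h5 : ∑ g ∈ Finset.univ.erase (1 : (↥(X (sr i)) ⧸ N) →* ℂˣ), (c g : ℂ) = 0 := by
        have h6 : ((Q : ℂ) + (Q : ℂ) ^ 2) * ∑ g ∈ Finset.univ.erase (1 : (↥(X (sr i)) ⧸ N) →* ℂˣ), (c g : ℂ) = 0 := by
          linear_combination h3
        exact (mul_eq_zero.1 h6).resolve_left hQ1'
      have h6 : ∑ g ∈ Finset.univ.erase (1 : (↥(X (sr i)) ⧸ N) →* ℂˣ), c g = 0 := by exact_mod_cast h5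
      intro g hg
      have h7 := (Finset.sum_eq_zero_iff_of_nonneg fun _ _ => Nat.zero_le _).1 h6 g
        (Finset.mem_erase.2 ⟨hg, Finset.mem_univ g⟩)
      rw [hc g hg, h7, Nat.cast_zero, mul_zero]
    -- the given character
    have hker : N ≤ (psiX R psi hn₀ i).ker := by
      intro x hx
      exact hZker (psiX R psi hn₀ i) x ((hNm x).1 hx)
    have hg0 : (QuotientGroup.lift N (psiX R psi hn₀ i) hker).comp (QuotientGroup.mk' N) = psiX R psi hn₀ i :=
      MonoidHom.ext fun x => rfl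
    have hne : QuotientGroup.lift N (psiX R psi hn₀ i) hker ≠ 1 := by
      intro h3
      apply psiX_ne R hpsi hn₀ i
      rw [← hg0, h3, MonoidHom.one_comp]
    have h3 := hall _ hne
    rw [hg0] at h3
    refine ⟨Q, ?_⟩
    rw [alf_eq, hmu, Units.val_one, hz, hq, mul_one]
    have h4 : AA R i nu (psiX R psi hn₀ i) = e * Q := by
      linear_combination - e * h3 - (AA R i nu (psiX R psi hn₀ i)) * he
    rw [h4]
    field_simp
    linear_combination - (Q - 1) * he

end Cfsg.Agent.H381.OQ
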